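import Cfsg.Agent.CosetEnum.Level
import Cfsg.Agent.CosetEnum.HN.T100R0

/-! Permutation table (generated data, owner: helper28). -/

set_option autoImplicit false
set_option maxRecDepth 1000000

namespace Cfsg.Agent.CosetEnum.HNT100

theorem st : letsB 11 iv lets RL = true := by decide +kernel

theorem tabOK : TabOK P 11 iv lets RL := ⟨st, Cov.of r0 rfl⟩


end Cfsg.Agent.CosetEnum.HNT100
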