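import Cfsg.Agent.CosetEnum.HN.NOrd
import Cfsg.Agent.CosetEnum.HN.T100
import Cfsg.Agent.CosetEnum.HN.X100
import Cfsg.Agent.CosetEnum.Double
import Cfsg.Agent.MRel.HSZ

/-!
The double cover of the Higman-Sims group in the Harada-Norton group (owner: helper66).
-/

set_option autoImplicit false
set_option maxRecDepth 1000000
set_option linter.all false

namespace Cfsg.Agent.HN

open Cfsg.Agent.CosetEnum Cfsg.Agent.KMat Cfsg.Spor Subgroup

/-- the presented group -/
abbrev QN : Type := QG 11 HNNM.iv HNNM.RL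
/-- its letters -/
abbrev qn : ℕ → QN := qg 11 HNNM.iv HNNM.RL

theorem UN : Univ qn 11 HNNM.iv HNNM.RL := univ_qg _ _ _

theorem bdQN : Bd (⊤ : Subgroup QN) 177408000 := by
  have h0 : Good (CosetEnum.cut qn 9) 9 HNM9.iv HNM9.RL := UN.good.cut (by decide +kernel)
  have h1 := bdM h0 rfl rfl
  rw [Cl_cut] at h1
  have h2 := h1.cl (M := 177408000) HNNM.cert UN.good (by decide +kernel) (by decide +kernel) (by norm_num) rfl
  rwa [UN.top] at h2

theorem exists_tQ : ∃ θ : QN →* Spor.HN, ∀ x, θ (qn x) = ren gN 11 plN x := UN.univ _ _ goodNM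

noncomputable def tQ : QN →* Spor.HN := exists_tQ.choose

theorem tQ_qn (x : ℕ) : tQ (qn x) = ren gN 11 plN x := exists_tQ.choose_spec x

theorem tQ_range : tQ.range = Cl (ren gN 11 plN) 11 := by
  rw [MonoidHom.range_eq_map, ← UN.top]
  unfold Cl
  rw [MonoidHom.map_closure, ← Set.image_comp]
  congr 1
  apply Set.image_congr
  intro x _
  exact tQ_qn x

theorem NN_le_range : NN ≤ tQ.range := by
  rw [tQ_range, Cl_ren gN (k := 11) (pl := plN) rfl]
  have hm : ∀ {w : List ℕ}, w.all (fun x => plN.contains x) = true → wd gN w ∈ ClL gN plN := by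
    intro w hw
    apply list_prod_mem
    intro z hz
    rw [List.mem_map] at hz
    obtain ⟨y, hy, rfl⟩ := hz
    exact mem_ClL gN (by simpa using (List.all_eq_true.1 hw) y hy)
  have m1 : gR 1 ∈ ClL gN plN := by rw [x_nice]; exact hm (by decide)
  have m3 : gR 3 ∈ ClL gN plN := by rw [y_nice]; exact hm (by decide)
  have m5 : gR 5 ∈ ClL gN plN := by rw [← gN2]; exact mem_ClL gN (by decide)
  show Cl gR 5 ≤ _
  unfold Cl
  rw [Subgroup.closure_le]
  rintro _ ⟨x, hx, rfl⟩
  obtain ⟨h1, h2⟩ := isLet_iff.1 (show isLet 5 x = true from hx)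
  interval_cases x
  · exact m1
  · exact inv_mem m1
  · exact m3
  · exact inv_mem m3
  · exact m5

instance finite_QN : Finite QN := by
  haveI := bdQN.1
  exact Finite.of_equiv _ (Subgroup.topEquiv (G := QN)).toEquiv

theorem card_QN_le : Nat.card QN ≤ 177408000 := by
  rw [← Nat.card_congr (Subgroup.topEquiv (G := QN)).toEquiv]
  exact bdQN.2

theorem tQ_range_card : Nat.card tQ.range = 177408000 := by
  haveI := finite_HN
  apply le_antisymm
  · exact (Nat.card_le_card_of_surjective _ tQ.rangeRestrict_surjective).trans card_QN_le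
  · rw [← card_NN]
    exact Subgroup.card_le_of_le NN_le_range

theorem tQ_inj : Function.Injective tQ := by
  haveI := finite_HN
  have h1 : Function.Bijective tQ.rangeRestrict :=
    tQ.rangeRestrict_surjective.bijective_of_nat_card_le (by rw [tQ_range_card]; exact card_QN_le)
  intro a b h
  exact h1.1 (Subtype.ext h)

theorem range_NN : tQ.range = NN := by
  haveI := finite_HN
  exact (Subgroup.eq_of_le_of_card_ge NN_le_range (by rw [tQ_range_card, card_NN])).symm

noncomputable def eNN : QN ≃* NN := (MonoidHom.ofInjective tQ_inj).trans (MulEquiv.subgroupCongr range_NN)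

theorem card_QN : Nat.card QN = 177408000 := by
  rw [Nat.card_congr eNN.toEquiv, card_NN]

/-- the sign of the letters -/
def sg (x : ℕ) : ℤˣ := if 2 ≤ x ∧ x ≤ 9 then -1 else 1

theorem sg_good : Good sg 11 HNNM.iv HNNM.RL := by
  refine ⟨?_, ?_, ?_⟩
  · intro x
    rcases Nat.lt_or_ge x 12 with h | h
    · interval_cases x <;> decide
    · have h1 : ivL HNNM.iv x = x := by
        rw [show HNNM.iv = [(10, 11)] from rfl]
        unfold ivL
        rw [if_neg (by omega), if_neg (by omega)]
        rfl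
      rw [h1, sg, if_neg (by omega), inv_one]
  · intro x hx
    have : ¬ (2 ≤ x ∧ x ≤ 9) := by
      intro h
      have h2 : isLet 11 x = true := isLet_iff.2 ⟨by omega, by omega⟩
      rw [h2] at hx
      exact absurd hx (by simp)
    rw [sg, if_neg this]
  · intro p hp
    have h1 : HNNM.RL.all (fun p => decide (((p.1.map sg).prod) ^ p.2 = 1)) = true := by decide +kernel
    have := (List.all_eq_true.1 h1) p hp
    simpa using this

theorem exists_sg : ∃ χ : QN →* ℤˣ, ∀ x, χ (qn x) = sg x := UN.univ _ _ sg_good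

noncomputable def chi : QN →* ℤˣ := exists_sg.choose

theorem chi_qn (x : ℕ) : chi (qn x) = sg x := exists_sg.choose_spec x

/-- the subgroup of index two -/
noncomputable def KE : Subgroup QN := chi.ker

theorem KE_index : KE.index = 2 := by
  have h1 : Function.Surjective chi := by
    intro y
    rcases Int.units_eq_one_or y with rfl | rfl
    · exact ⟨1, map_one _⟩
    · exact ⟨qn 2, chi_qn 2⟩
  rw [KE, Subgroup.index_ker, MonoidHom.range_eq_top.2 h1, Nat.card_congr Subgroup.topEquiv.toEquiv, Nat.card_eq_fintype_card]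
  rfl

theorem KE_card : Nat.card KE = 88704000 := by
  have h := KE.card_mul_index
  rw [KE_index, card_QN] at h
  omega

theorem T100ok : TabOK HNT100.P 11 HNNM.iv HNT100.lets HNNM.RL := by
  have h1 : HNT100.iv = HNNM.iv := by decide +kernel
  have h2 : HNT100.RL = HNNM.RL := by decide +kernel
  rw [← h1, ← h2]
  exact HNT100.tabOK

/-- the permutations -/
noncomputable def pf100 : ℕ → Equiv.Perm (Fin 100) := T100ok.pf

theorem pf100_acts {x : ℕ} (hx : x ∈ HNT100.lets) (i : Fin 100) :
    (((pf100 x)⁻¹ i : Fin 100) : ℕ) = act HNT100.P x i := T100ok.pf_inv hx i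

theorem exists_ph : ∃ φ : QN →* Equiv.Perm (Fin 100), ∀ x, φ (qn x) = pf100 x :=
  UN.univ _ _ T100ok.good

noncomputable def ph : QN →* Equiv.Perm (Fin 100) := exists_ph.choose

theorem ph_qn (x : ℕ) : ph (qn x) = pf100 x := exists_ph.choose_spec x

theorem ph_range : ph.range = closure (pf100 '' {x | x ∈ HNT100.lets}) := by
  rw [MonoidHom.range_eq_map, ← UN.top]
  unfold Cl
  rw [MonoidHom.map_closure, ← Set.image_comp]
  have h1 : {x | isLet 11 x = true} = {x | x ∈ HNT100.lets} := by
    ext x
    exact (T100ok.mem_iff (x := x)).symm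
  rw [← h1]
  congr 1
  apply Set.image_congr
  intro x _
  exact ph_qn x

theorem ph_card_ge : 88704000 ≤ Nat.card ph.range := by
  have h := card_ge T100ok.acts HNT100.chain
  have h2 : (HNT100.ls.map fun p => p.2.length).prod = 88704000 := by decide +kernel
  rw [h2] at h
  rw [ph_range]
  exact h

/-- the central involution -/
noncomputable abbrev vq : QN := qn 1

theorem vq_ph : ph vq = 1 := by
  rw [ph_qn, ← inv_inj, inv_one]
  ext i
  rw [pf100_acts (by decide) i]
  have h1 : allR (fun i => Nat.beq (act HNT100.P 1 i) i) 0 100 = true := by decide +kernel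
  exact beq_true ((allR_sound h1) i (Nat.zero_le _) i.2)

theorem vq_ne : vq ≠ 1 := by
  intro h
  have h1 : tQ vq = 1 := by rw [h, map_one]
  rw [tQ_qn] at h1
  have h2 : gN 1 = 1 := h1
  have h3 : tN (qa 1) = gN 1 := th_qa gN_good (by decide)
  rw [h2] at h3
  have h4 : qa 1 = 1 := tN_inj (h3.trans (map_one _).symm)
  obtain ⟨A, hA, _⟩ := HNT12.tabOK.exists_action UA
  have hb : ¬ ∀ i < 12, act HNT12.P 1 i = i := by decide +kernel
  apply hb
  intro i hi
  have h5 := hA 1 (by decide) ⟨i, hi⟩
  have h6 : ((qa 1)⁻¹ : QA) = 1 := by rw [h4, inv_one]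
  rw [← h5, show qa 1 = 1 from h4]
  simp

theorem vq_K : vq ∈ KE := by
  rw [KE, MonoidHom.mem_ker, chi_qn]
  decide


/-- the action of the subgroup of index two -/
noncomputable def phK : KE →* Equiv.Perm (Fin 100) := ph.comp KE.subtype

theorem ph_ker : Nat.card ph.ker = 2 := by
  have h1 := ph.ker.card_mul_index
  rw [Subgroup.index_ker, card_QN] at h1
  have h2 := ph_card_ge
  have h3 : 2 ≤ Nat.card ph.ker := by
    have : Nontrivial ph.ker := ⟨⟨⟨vq, vq_ph⟩, 1, fun h => vq_ne (congrArg (fun y : ph.ker => (y : QN)) h)⟩⟩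
    exact Finite.one_lt_card
  have h4 : Nat.card ph.ker * 88704000 ≤ 177408000 := by
    rw [← h1]; exact Nat.mul_le_mul_left _ h2
  omega

theorem phK_ker : Nat.card phK.ker = 2 := by
  apply le_antisymm
  · rw [← ph_ker]
    apply Nat.card_le_card_of_injective (fun y : phK.ker => (⟨y.1.1, y.2⟩ : ph.ker))
    intro a b h
    exact Subtype.ext (Subtype.ext (congrArg (fun y : ph.ker => (y : QN)) h))
  · have : Nontrivial phK.ker := ⟨⟨⟨⟨vq, vq_K⟩, vq_ph⟩, 1, fun h => vq_ne
      (congrArg (fun y : phK.ker => ((y : KE) : QN)) h)⟩⟩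
    exact Finite.one_lt_card

theorem phK_card : Nat.card phK.range = 44352000 := by
  have h1 := phK.ker.card_mul_index
  rw [Subgroup.index_ker, KE_card, phK_ker] at h1
  omega

end Cfsg.Agent.HN
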