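import Cfsg.Agent.CosetEnum.HN.HS2
import Cfsg.Agent.CosetEnum.Double
import Cfsg.Agent.CosetEnum.Trans
import Cfsg.Agent.MRel.HSZ

/-!
The double cover of the Higman-Sims group in the Harada-Norton group (owner: helper66).
-/

set_option autoImplicit false
set_option maxRecDepth 1000000
set_option linter.all false

namespace Cfsg.Agent.HN

open Cfsg.Agent.CosetEnum Cfsg.Agent.KMat Cfsg.Spor Subgroup
open scoped commutatorElement
open Cfsg.Agent.MRel.HS (allN allN_sound row Δ srg adj_iff hs_of_srg)

theorem t_adj : allN (fun i => allN (fun x => cond (isLet 11 x)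
    (allN (fun j => (row i).testBit j == (row (act HNT100.P x i)).testBit (act HNT100.P x j)) 100) true) 12) 100 = true := by
  decide +kernel

theorem adj_act {x : ℕ} (hx : isLet 11 x = true) (i j : Fin 100) :
    (row i).testBit j = (row (act HNT100.P x i)).testBit (act HNT100.P x j) := by
  have h16 : x < 12 := by
    have := isLet_iff.1 hx
    omega
  have h1 := allN_sound (allN_sound t_adj i i.2) x h16
  rw [hx] at h1
  have h2 : allN (fun j => (row i).testBit j == (row (act HNT100.P x i)).testBit (act HNT100.P x j)) 100 = true := h1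
  exact beq_iff_eq.1 (allN_sound h2 j j.2)

/-- permutations preserving adjacency -/
def SA : Subgroup (Equiv.Perm (Fin 100)) where
  carrier := {y | ∀ i j : Fin 100, Δ.Adj (y i) (y j) ↔ Δ.Adj i j}
  mul_mem' := by
    intro a b ha hb i j
    exact (ha _ _).trans (hb _ _)
  one_mem' := fun i j => Iff.rfl
  inv_mem' := by
    intro a ha i j
    have := ha (a⁻¹ i) (a⁻¹ j)
    rw [show a (a⁻¹ i) = i from a.apply_symm_apply i, show a (a⁻¹ j) = j from a.apply_symm_apply j] at this
    exact this.symm

theorem ph_SA : ph.range ≤ SA := by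
  rw [ph_range, closure_le]
  rintro _ ⟨x, hx, rfl⟩
  have hx' : isLet 11 x = true := T100ok.mem_iff.1 hx
  have h1 : (pf100 x)⁻¹ ∈ SA := by
    intro i j
    rw [adj_iff, adj_iff, pf100_acts hx i, pf100_acts hx j, ← adj_act hx']
  exact inv_mem_iff.1 h1

/-- automorphisms of the graph -/
def psA : SA →* (Δ ≃g Δ) where
  toFun y := ⟨y.1, fun {i j} => y.2 i j⟩
  map_one' := by ext1 x; rfl
  map_mul' a b := by ext1 x; rfl

theorem phK_SA : phK.range ≤ SA := by
  refine le_trans ?_ ph_SA
  rintro _ ⟨y, rfl⟩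
  exact ⟨y.1, rfl⟩

theorem isoG : Nonempty (phK.range ≃* Spor.HS) := by
  refine hs_of_srg Δ srg 0 (psA.comp (Subgroup.inclusion phK_SA)) ?_ phK_card
  intro a b h
  apply Subtype.ext
  ext1 x
  exact congrArg (fun φ : Δ ≃g Δ => φ x) h

theorem simple_G : IsSimpleGroup Spor.HS :=
  (Cfsg.Agent.H90.Co.isoHS).isSimpleGroup_congr.1 Cfsg.Agent.LeechSimple.simple_hsSub

theorem card_G : Nat.card Spor.HS = 44352000 := by
  rw [← Nat.card_congr isoG.some.toEquiv, phK_card]

/-- the map onto the Higman-Sims group -/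
noncomputable def fK : KE →* Spor.HS := isoG.some.toMonoidHom.comp phK.rangeRestrict

theorem fK_surj : Function.Surjective fK := isoG.some.surjective.comp phK.rangeRestrict_surjective

theorem fK_ker {x : KE} : x ∈ fK.ker ↔ ph x = 1 := by
  rw [MonoidHom.mem_ker]
  show isoG.some (phK.rangeRestrict x) = 1 ↔ _
  rw [EmbeddingLike.map_eq_one_iff, ← Subtype.coe_inj]
  rfl

/-- the central involution in the subgroup -/
noncomputable def vK : KE := ⟨vq, vq_K⟩

theorem vK_ne : vK ≠ 1 := fun h => vq_ne (congrArg (fun y : KE => (y : QN)) h)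

theorem vK_ker : vK ∈ fK.ker := fK_ker.2 vq_ph

theorem fK_ker' : ∀ x ∈ fK.ker, x = 1 ∨ x = vK := by
  haveI : Finite Spor.HS := Nat.finite_of_card_ne_zero (by rw [card_G]; norm_num)
  exact (dc_card fK fK_surj inferInstance (by rw [KE_card, card_G]) vK_ker vK_ne).2

theorem mem_KE {w : List ℕ} (h : ((w.map sg).prod : ℤˣ) = 1) : wd qn w ∈ KE := by
  rw [KE, MonoidHom.mem_ker]
  unfold wd
  rw [map_list_prod, List.map_map]
  rw [← h]
  congr 1
  apply List.map_congr_left
  intro x _
  exact chi_qn x

theorem qrel {p : List ℕ × ℕ} (h : HNNM.RL.contains p = true) : (wd qn p.1) ^ p.2 = 1 :=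
  UN.good.rel p (by simpa using h)

theorem ph_word : ∀ (w : List ℕ), (∀ x ∈ w, x ∈ HNT100.lets) → ∀ i : Fin 100,
    (((ph (wd qn w))⁻¹ i : Fin 100) : ℕ) = actW HNT100.P w i := by
  intro w
  induction w with
  | nil =>
    intro _ i
    have : wd qn [] = 1 := rfl
    rw [this, map_one, inv_one]
    rfl
  | cons x w ih =>
    intro hw i
    have h1 : wd qn (x :: w) = qn x * wd qn w := by
      unfold wd; rw [List.map_cons, List.prod_cons]
    rw [h1, map_mul, mul_inv_rev, Equiv.Perm.mul_apply, ih (fun y hy => hw y (List.mem_cons_of_mem _ hy)), actW_cons, ph_qn,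
      pf100_acts (hw x List.mem_cons_self) i]

/-- `v` is a commutator -/
theorem v_comm : vK ∈ commutator KE := by
  let a : KE := ⟨wd qn [11], mem_KE (by decide)⟩
  let b : KE := ⟨wd qn [3, 2], mem_KE (by decide)⟩
  have h1 : vK = ⁅a, b⁆ := by
    apply Subtype.ext
    show qn 1 = wd qn [11] * wd qn [3, 2] * (wd qn [11])⁻¹ * (wd qn [3, 2])⁻¹
    have r1 := qrel (p := ([11, 2, 10, 3], 1)) (by decide +kernel)
    have r2 := qrel (p := ([11, 3, 10, 2], 1)) (by decide +kernel)
    have r3 := qrel (p := ([2, 3, 2, 3, 1], 1)) (by decide +kernel)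
    have i2 := UN.good.inv 2
    have i3 := UN.good.inv 3
    have i1 := UN.good.inv 1
    have i11 := UN.good.inv 11
    rw [show ivL HNNM.iv 2 = 2 from by decide] at i2
    rw [show ivL HNNM.iv 3 = 3 from by decide] at i3
    rw [show ivL HNNM.iv 1 = 1 from by decide] at i1
    rw [show ivL HNNM.iv 11 = 10 from by decide] at i11
    simp only [wd, List.map_cons, List.map_nil, List.prod_cons, List.prod_nil, mul_one, pow_one] at r1 r2 r3 ⊢
    generalize qn 11 = U at *
    generalize qn 10 = u at *
    generalize qn 2 = z at *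
    generalize qn 3 = s at *
    generalize qn 1 = v at *
    subst i11
    have e1 : U * z * U⁻¹ = s := by
      have : U * z * U⁻¹ = s⁻¹ := by
        rw [eq_inv_iff_mul_eq_one, mul_assoc, mul_assoc]; exact r1
      rw [this, ← i3]
    have e2 : U * s * U⁻¹ = z := by
      have : U * s * U⁻¹ = z⁻¹ := by
        rw [eq_inv_iff_mul_eq_one, mul_assoc, mul_assoc]; exact r2
      rw [this, ← i2]
    have e3 : z * (s * (z * s)) = v := by
      have : z * (s * (z * s)) = v⁻¹ := by
        rw [eq_inv_iff_mul_eq_one]; simpa only [mul_assoc] using r3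
      rw [this, ← i1]
    have e4 : U * (s * z) * U⁻¹ = z * s := by
      calc U * (s * z) * U⁻¹ = (U * s * U⁻¹) * (U * z * U⁻¹) := by group
        _ = z * s := by rw [e1, e2]
    rw [e4, mul_inv_rev, ← i2, ← i3, ← e3]
    simp only [mul_assoc]
  rw [h1]
  exact commutator_mem_commutator (mem_top a) (mem_top b)

theorem perfect_KE : commutator KE = ⊤ := by
  haveI := simple_G
  have h1 : ((commutator KE).map fK).Normal := Subgroup.Normal.map inferInstance _ fK_surj
  have h2 : (commutator KE).map fK = ⊤ := by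
    rcases h1.eq_bot_or_eq_top with h | h
    · exfalso
      let a : KE := ⟨wd qn [11], mem_KE (by decide)⟩
      let b : KE := ⟨wd qn [3, 4], mem_KE (by decide)⟩
      have h3 : ⁅a, b⁆ ∈ commutator KE := commutator_mem_commutator (mem_top a) (mem_top b)
      have h4 : fK ⁅a, b⁆ = 1 := by
        have : fK ⁅a, b⁆ ∈ (commutator KE).map fK := ⟨_, h3, rfl⟩
        rwa [h, Subgroup.mem_bot] at this
      have h5 := fK_ker.1 h4
      have h6 : ((⁅a, b⁆ : KE) : QN) = wd qn [11, 3, 4, 10, 4, 3] := by
        show wd qn [11] * wd qn [3, 4] * (wd qn [11])⁻¹ * (wd qn [3, 4])⁻¹ = _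
        have i4 := UN.good.inv 4
        have i3 := UN.good.inv 3
        have i11 := UN.good.inv 11
        rw [show ivL HNNM.iv 4 = 4 from by decide] at i4
        rw [show ivL HNNM.iv 3 = 3 from by decide] at i3
        rw [show ivL HNNM.iv 11 = 10 from by decide] at i11
        simp only [wd, List.map_cons, List.map_nil, List.prod_cons, List.prod_nil, mul_one]
        rw [mul_inv_rev, ← i3, ← i4, ← i11]
        simp only [mul_assoc]
      rw [h6] at h5
      have hb : ¬ ∀ i < 100, actW HNT100.P [11, 3, 4, 10, 4, 3] i = i := by decide +kernel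
      apply hb
      intro i hi
      rw [← ph_word [11, 3, 4, 10, 4, 3] (by decide) ⟨i, hi⟩, h5, inv_one]
      rfl
    · exact h
  rw [eq_top_iff]
  intro x _
  obtain ⟨c, hc, hcx⟩ : fK x ∈ (commutator KE).map fK := by rw [h2]; trivial
  have h3 : x * c⁻¹ ∈ fK.ker := by rw [MonoidHom.mem_ker, map_mul, map_inv, hcx, mul_inv_cancel]
  have h4 : x = (x * c⁻¹) * c := by group
  rw [h4]
  refine mul_mem ?_ hc
  rcases fK_ker' _ h3 with h | h
  · rw [h]; exact one_mem _
  · rw [h]; exact v_comm

theorem cover_KE : IsNonsplitDoubleCover KE Spor.HS :=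
  dc_cover fK fK_surj simple_G vK_ker vK_ne fK_ker' perfect_KE

theorem cover_NN : ∃ K : Subgroup NN, K.Normal ∧ K.index = 2 ∧ IsNonsplitDoubleCover K Spor.HS := by
  have hn : KE.Normal := inferInstanceAs (chi.ker).Normal
  refine ⟨KE.map eNN.toMonoidHom, hn.map _ eNN.surjective, ?_, cover_equiv (eNN.subgroupMap KE) cover_KE⟩
  rw [← KE_index]
  exact Subgroup.index_map_equiv KE eNN

end Cfsg.Agent.HN
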