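import Cfsg.Agent.CosetEnum.HN.Ord
import Cfsg.Agent.CosetEnum.HN.NM
import Cfsg.Agent.CosetEnum.HN.W1100

/-!
The order of `⟨x, y, z⟩` in the Harada-Norton group (owner: helper66).
-/

set_option autoImplicit false
set_option maxRecDepth 1000000
set_option linter.all false

namespace Cfsg.Agent.HN

open Cfsg.Agent.CosetEnum Cfsg.Agent.KMat Cfsg.Spor

/-- letters of the matrices for the nice letters -/
def nm : ℕ → ℕ
  | 1 => 12
  | 2 => 5
  | 3 => 13
  | 4 => 14
  | 5 => 15
  | 6 => 16
  | 7 => 17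
  | 8 => 18
  | 9 => 6
  | 10 => 7
  | 11 => 19
  | 12 => 10
  | 13 => 11
  | _ => 0

theorem gm_def {x : ℕ} {w : List ℕ} (hR : RLM.contains (x :: w, 1) = true) (hx : ivL ivR x = x) :
    wd RT.gm w = RT.gm x := by
  have h := RT.good.rel (x :: w, 1) (by simpa using hR)
  rw [pow_one, List.map_cons, List.prod_cons, mul_eq_one_iff_eq_inv] at h
  have h2 := RT.good.inv x
  rw [hx] at h2
  have h3 : RT.gm x = (wd RT.gm w)⁻¹ := h
  rw [h2, inv_inj] at h3
  exact h3.symm

theorem phi_gN {x : ℕ} (h : 1 ≤ x ∧ x ≤ 13) : phi (gN x) = RT.gm (nm x) := by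
  obtain ⟨h1, h2⟩ := h
  interval_cases x
  · exact (phi_wd (w := [1, 1]) (by decide)).trans (gm_def (by decide +kernel) (by decide))
  · rw [gN2]; exact phi_let (by decide)
  · exact (phi_wd (w := [11, 5, 10]) (by decide)).trans (gm_def (by decide +kernel) (by decide))
  · exact (phi_wd (w := [8, 1, 9, 5]) (by decide)).trans (gm_def (by decide +kernel) (by decide))
  · exact (phi_wd (w := [9, 9, 9, 1, 8, 8, 8, 5]) (by decide)).trans (gm_def (by decide +kernel) (by decide))
  · exact (phi_wd (w := [9, 9, 9, 9, 9, 9, 1, 8, 8, 8, 8, 8, 8, 5]) (by decide)).trans (gm_def (by decide +kernel) (by decide))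
  · exact (phi_wd (w := [8, 8, 1, 9, 9, 5]) (by decide)).trans (gm_def (by decide +kernel) (by decide))
  · exact (phi_wd (w := [9, 1, 8, 5]) (by decide)).trans (gm_def (by decide +kernel) (by decide))
  · rw [gN9]; exact phi_let (by decide)
  · rw [gN10]; exact phi_let (by decide)
  · exact (phi_wd (w := [8, 8, 8, 8, 1, 9, 9, 9, 9, 5]) (by decide)).trans (gm_def (by decide +kernel) (by decide))
  · rw [gN12]; exact phi_let (by decide)
  · rw [gN13]; exact phi_let (by decide)

theorem nm_mem {x : ℕ} (h : 1 ≤ x ∧ x ≤ 13) : nm x ∈ letsM := by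
  obtain ⟨h1, h2⟩ := h
  interval_cases x <;> decide

theorem im_nm {w : List ℕ} (h : wOK 13 w = true) : im (wd gN w) = dec PM (walk PM ms (w.map nm) 1) := by
  have h0 : ∀ x ∈ w, 1 ≤ x ∧ x ≤ 13 := by
    intro x hx
    have := isLet_iff.1 ((List.all_eq_true.1 h) x hx)
    omega
  have h1 : ∀ x ∈ w.map nm, x ∈ letsM := by
    intro x hx
    rw [List.mem_map] at hx
    obtain ⟨y, hy, rfl⟩ := hx
    exact nm_mem (h0 y hy)
  have h2 := (walk_sound PM_ok (u := w.map nm) (fun x hx => RT.mok x (h1 x hx)) e0_vec).2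
  rw [h2, im]
  congr 1
  have h3 : phi (wd gN w) = wd RT.gm (w.map nm) := by
    unfold wd
    rw [map_list_prod, List.map_map, List.map_map]
    congr 1
    apply List.map_congr_left
    intro x hx
    exact phi_gN (h0 x hx)
  rw [h3]
  exact RT.gm_word h1

/-- the images of the fixed vector under the words are increasing -/
noncomputable def incB : List (List ℕ) → ℕ → Bool :=
  @List.rec (List ℕ) (fun _ => ℕ → Bool) (fun _ => true)
    (fun w _ ih a => force (walk PM ms (w.map nm) 1) fun b => @Bool.rec (fun _ => Bool) (ih b) false (Nat.ble b a))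

theorem incB_sound {L : List (List ℕ)} {a : ℕ} (h : incB L a = true) :
    (∀ w ∈ L, a < walk PM ms (w.map nm) 1) ∧ (L.map fun w => walk PM ms (w.map nm) 1).Nodup := by
  induction L generalizing a with
  | nil => simp
  | cons w L ih =>
    have h' : force (walk PM ms (w.map nm) 1) (fun b => @Bool.rec (fun _ => Bool) (incB L b) false (Nat.ble b a)) = true := h
    rw [force_eq] at h'
    obtain ⟨h1, h2⟩ := sel_true_right h'
    have h3 := ble_false h1
    obtain ⟨h4, h5⟩ := ih h2
    refine ⟨?_, ?_⟩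
    · intro u hu
      rcases List.mem_cons.1 hu with rfl | hu
      · exact h3
      · exact h3.trans (h4 u hu)
    · rw [List.map_cons, List.nodup_cons]
      refine ⟨?_, h5⟩
      intro h6
      rw [List.mem_map] at h6
      obtain ⟨u, hu, h7⟩ := h6
      have := h4 u hu
      omega

theorem inc1100 : incB w1100 0 = true := by decide +kernel

theorem ok1100 : w1100.all (fun w => w.all (fun x => [1, 2, 3, 4, 5, 6, 7, 8, 11, 12, 13].contains x)) = true := by
  decide +kernel

theorem len1100 : w1100.length = 1100 := by decide +kernel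

/-- a chain for the group of order 161280 on 12 points -/
def lsM : List (Nat × List Nat) := [(0, [0x0, 0x3, 0xb3, 0x4b3, 0x54b3, 0x654b3, 0x7654b3, 0x87654b3]), (1, [0x0, 0x2, 0x21, 0x1]), (2, [0x0, 0x14]), (3, [0x0]), (4, [0x0]), (5, [0x0, 0xb4, 0x4b, 0x454b, 0x654b, 0x47654b, 0x87654b]), (6, [0x0, 0x45, 0x54, 0x4654, 0x7654, 0x487654]), (7, [0x0, 0x56, 0x65, 0x5765, 0x8765]), (8, [0x0, 0x67, 0x76, 0x6876]), (9, [0x0, 0x78, 0x87]), (10, [0x0]), (11, [0x0])]

/-- letters of `M` -/
def lM : List ℕ := [1, 2, 3, 4, 5, 6, 7, 8, 11]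

theorem chainM : chainB HNT12.P lM lsM [] = true := by decide +kernel

/-- the group `M` in the alternating group -/
noncomputable def MQ : Subgroup QA := Subgroup.closure (qa '' {x | x ∈ lM})

theorem card_MQ : 161280 ≤ Nat.card MQ := by
  haveI := finite_QA
  obtain ⟨A, hA, _⟩ := HNT12.tabOK.exists_action UA
  have h := card_ge (lets := lM) (fun x hx i => hA x (by
    have h1 : lM.all (fun x => HNT12.lets.contains x) = true := by decide +kernel
    simpa using (List.all_eq_true.1 h1) x hx) i) chainM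
  have h2 : (lsM.map fun p => p.2.length).prod = 161280 := by decide +kernel
  rw [h2] at h
  exact h

/-- the subgroup generated by `x`, `y`, `z` -/
noncomputable abbrev NN : Subgroup Spor.HN := Cl gR 5

theorem NN_R {x : ℕ} (h : x ∈ kl) : gR x ∈ NN := by
  have m : ∀ {x : ℕ}, isLet 5 x = true → gR x ∈ NN := fun h => mem_Cl gR h
  have m8 : gR 8 ∈ NN := by rw [g8]; exact word_mem_Cl gR (by decide)
  have m10 : gR 10 ∈ NN := by rw [g10]; exact word_mem_Cl gR (by decide)
  simp only [kl, List.mem_cons, List.not_mem_nil, or_false] at h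
  rcases h with rfl | rfl | rfl | rfl | rfl | rfl | rfl | rfl | rfl
  · exact m (by decide)
  · exact m (by decide)
  · exact m (by decide)
  · exact m (by decide)
  · exact m (by decide)
  · exact m8
  · exact inv_mem m8
  · exact m10
  · exact inv_mem m10

theorem NN_N {x : ℕ} (h : x ∈ nkl) : gN x ∈ NN := by
  have h1 : nkl.all (fun x => (nw x).all (fun y => kl.contains y)) = true := by decide +kernel
  unfold gN wd
  apply list_prod_mem
  intro z hz
  rw [List.mem_map] at hz
  obtain ⟨y, hy, rfl⟩ := hz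
  exact NN_R (by simpa using (List.all_eq_true.1 ((List.all_eq_true.1 h1) x h)) y hy)

theorem MQ_NN {a : QA} (ha : a ∈ MQ) : tN a ∈ NN := by
  have h1 : MQ.map tN ≤ NN := by
    rw [MQ, MonoidHom.map_closure, Subgroup.closure_le]
    rintro _ ⟨_, ⟨x, hx, rfl⟩, rfl⟩
    have hx' : x ∈ lM := hx
    have h2 : lM.all (fun x => isLet 11 x && nkl.contains x) = true := by decide +kernel
    have h3 := (List.all_eq_true.1 h2) x hx'
    rw [Bool.and_eq_true] at h3
    show tN (qa x) ∈ NN
    rw [th_qa gN_good h3.1]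
    exact NN_N (by simpa using h3.2)
  exact h1 ⟨a, ha, rfl⟩

theorem NN_ge : 177408000 ≤ Nat.card NN := by
  classical
  haveI := finite_HN
  haveI := finite_QA
  obtain ⟨hinc, hnd⟩ := incB_sound inc1100
  have hw13 : ∀ w ∈ w1100, wOK 13 w = true := by
    have h1 : w1100.all (wOK 13) = true := by decide +kernel
    exact List.all_eq_true.1 h1
  have hwN : ∀ w ∈ w1100, wd gN w ∈ NN := by
    intro w hw
    apply list_prod_mem
    intro z hz
    rw [List.mem_map] at hz
    obtain ⟨y, hy, rfl⟩ := hz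
    exact NN_N (by simpa [nkl] using (List.all_eq_true.1 ((List.all_eq_true.1 ok1100) w hw)) y hy)
  let L := {w // w ∈ w1100}
  let f : MQ × L → NN := fun q => ⟨tN q.1 * wd gN q.2, mul_mem (MQ_NN q.1.2) (hwN q.2 q.2.2)⟩
  have hf : Function.Injective f := by
    rintro ⟨a, w⟩ ⟨a', w'⟩ h
    have h1 : tN a * wd gN w = tN a' * wd gN w' := congrArg (fun z : NN => (z : Spor.HN)) h
    have h2 := congrArg im h1
    rw [im_mul, im_mul, im_HA (th_mem gN_good _), im_HA (th_mem gN_good _), ← im_one, ← im_mul, ← im_mul, one_mul, one_mul,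
      im_nm (hw13 w w.2), im_nm (hw13 w' w'.2)] at h2
    have hv : ∀ {u : List ℕ}, wOK 13 u = true → Vec PM (walk PM ms (u.map nm) 1) := fun {u} hu =>
      (walk_sound PM_ok (u := u.map nm) (fun x hx => by
        rw [List.mem_map] at hx
        obtain ⟨y, hy, rfl⟩ := hx
        have := isLet_iff.1 ((List.all_eq_true.1 hu) y hy)
        exact RT.mok _ (nm_mem (by omega))) e0_vec).1
    have h3 := dec_inj PM_ok (hv (hw13 w w.2)) (hv (hw13 w' w'.2)) h2
    have h4 : (w : List ℕ) = w' := List.inj_on_of_nodup_map hnd w.2 w'.2 h3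
    have h5 : w = w' := Subtype.ext h4
    subst h5
    have h6 : tN (a : QA) = tN (a' : QA) := mul_right_cancel h1
    have h7 : a = a' := Subtype.ext (tN_inj h6)
    rw [h7]
  have h1 := Nat.card_le_card_of_injective f hf
  rw [Nat.card_prod] at h1
  have h2 : Nat.card L = 1100 := by
    have h3 : w1100.Nodup := List.Nodup.of_map _ hnd
    have h4 : Nat.card L = w1100.toFinset.card := by
      rw [Nat.card_eq_fintype_card]
      apply Fintype.card_of_subtype
      intro x
      simp
    rw [h4, List.toFinset_card_of_nodup h3, len1100]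
  rw [h2] at h1
  have h3 := card_MQ
  omega

/-- order of the nice letters of `N` -/
def plN : List ℕ := [1, 2, 3, 11, 4, 5, 6, 7, 8, 12, 13]

theorem goodNM : Good (ren gN 11 plN) 11 HNNM.iv HNNM.RL := gN_good.ren (by decide +kernel)

theorem bdN : Bd (Cl (ren gN 11 plN) 11) 177408000 := by
  have h0 : Good (CosetEnum.cut (ren gN 11 plN) 9) 9 HNM9.iv HNM9.RL := goodNM.cut (by decide +kernel)
  have h1 := bdM h0 rfl rfl
  rw [Cl_cut] at h1
  exact h1.cl (M := 177408000) HNNM.cert goodNM (by decide +kernel) (by decide +kernel) (by norm_num) rfl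

theorem NN_le : Nat.card NN ≤ 177408000 := by
  haveI := finite_HN
  refine le_trans (Subgroup.card_le_of_le ?_) bdN.2
  rw [Cl_ren gN (k := 11) (pl := plN) rfl]
  have hm : ∀ {w : List ℕ}, w.all (fun x => plN.contains x) = true → wd gN w ∈ ClL gN plN := by
    intro w hw
    apply list_prod_mem
    intro z hz
    rw [List.mem_map] at hz
    obtain ⟨y, hy, rfl⟩ := hz
    exact mem_ClL gN (by simpa using (List.all_eq_true.1 hw) y hy)
  have m1 : gR 1 ∈ ClL gN plN := by rw [x_nice]; exact hm (by decide)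
  have m3 : gR 3 ∈ ClL gN plN := by rw [y_nice]; exact hm (by decide)
  have m5 : gR 5 ∈ ClL gN plN := by rw [← gN2]; exact mem_ClL gN (by decide)
  show Cl gR 5 ≤ _
  unfold Cl
  rw [Subgroup.closure_le]
  rintro _ ⟨x, hx, rfl⟩
  obtain ⟨h1, h2⟩ := isLet_iff.1 (show isLet 5 x = true from hx)
  interval_cases x
  · exact m1
  · exact inv_mem m1
  · exact m3
  · exact inv_mem m3
  · exact m5

theorem card_NN : Nat.card NN = 177408000 := le_antisymm NN_le NN_ge

theorem index_NN : NN.index = 1539000 := by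
  have h := NN.card_mul_index
  rw [card_NN, card_HN] at h
  omega

theorem NN_eq : (Subgroup.closure ({Cfsg.Spor.HN.x, Cfsg.Spor.HN.y, Cfsg.Spor.HN.z} : Set (FreeGroup Cfsg.Spor.HN.Gen))).map
    (PresentedGroup.mk (Cfsg.Spor.coxRelators Cfsg.Spor.HN.edges ∪ {r | r ∈ Cfsg.Spor.HN.extra})) = NN := by
  rw [MonoidHom.map_closure]
  apply le_antisymm
  · rw [Subgroup.closure_le]
    rintro _ ⟨w, hw, rfl⟩
    simp only [Set.mem_insert_iff, Set.mem_singleton_iff] at hw
    rcases hw with rfl | rfl | rfl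
    · exact mem_Cl gR (x := 1) (by decide)
    · exact mem_Cl gR (x := 3) (by decide)
    · exact mem_Cl gR (x := 5) (by decide)
  · have m1 : gR 1 ∈ Subgroup.closure ((PresentedGroup.mk (Cfsg.Spor.coxRelators Cfsg.Spor.HN.edges ∪
        {r | r ∈ Cfsg.Spor.HN.extra})) '' {Cfsg.Spor.HN.x, Cfsg.Spor.HN.y, Cfsg.Spor.HN.z}) :=
      Subgroup.subset_closure ⟨_, by simp, rfl⟩
    have m3 : gR 3 ∈ Subgroup.closure ((PresentedGroup.mk (Cfsg.Spor.coxRelators Cfsg.Spor.HN.edges ∪
        {r | r ∈ Cfsg.Spor.HN.extra})) '' {Cfsg.Spor.HN.x, Cfsg.Spor.HN.y, Cfsg.Spor.HN.z}) :=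
      Subgroup.subset_closure ⟨Cfsg.Spor.HN.y, by simp, rfl⟩
    have m5 : gR 5 ∈ Subgroup.closure ((PresentedGroup.mk (Cfsg.Spor.coxRelators Cfsg.Spor.HN.edges ∪
        {r | r ∈ Cfsg.Spor.HN.extra})) '' {Cfsg.Spor.HN.x, Cfsg.Spor.HN.y, Cfsg.Spor.HN.z}) :=
      Subgroup.subset_closure ⟨Cfsg.Spor.HN.z, by simp, rfl⟩
    show Cl gR 5 ≤ _
    unfold Cl
    rw [Subgroup.closure_le]
    rintro _ ⟨x, hx, rfl⟩
    obtain ⟨h1, h2⟩ := isLet_iff.1 (show isLet 5 x = true from hx)
    interval_cases x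
    · exact m1
    · exact inv_mem m1
    · exact m3
    · exact inv_mem m3
    · exact m5

end Cfsg.Agent.HN
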